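import Cfsg.Agent.H486.US.Fin

/-!
# The 2-covers of `SU₆(2)`: every noncentral element is a commutator, from the class cover (helper486)
-/

set_option autoImplicit false
set_option linter.unusedSectionVars false

namespace Cfsg.Agent.H486.US

open Subgroup Cfsg Cfsg.Agent.LieClassical.HermBasic Cfsg.Agent.ClassicalGeometry.UnitTransv
  Cfsg.Agent.SporadicStructure.UnitTwo Cfsg.Agent.R01.PSUSix Cfsg.Agent.KFacts.OddLift.USixL Cfsg.Agent.H777.Ore
  Cfsg.Agent.H51.Mult
open Cfsg.Agent.LieClassical.HermSiegel (mat mat_def mat_injective mat_mul)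
open Cfsg.Agent.ClassicalGeometry.PSUAutCount (gm guConj mat_guConjFun gm_mul_inv)
open Cfsg.Agent.H767.U6 (XP cd X mt)
open scoped Matrix

universe u v w

variable {F : Type} [Field F] [Fintype F] {hF : Fintype.card F = 2 ^ 2} {ω : F} (hω : ω ^ 2 + ω + 1 = 0)

/-- composing with an automorphism of the quotient -/
theorem pce_aut {L : Type} [Group L] {φ : L →* SU 6 F 2} (hφ : PCE φ) (α : MulAut (SU 6 F 2)) :
    PCE (α.toMonoidHom.comp φ) := by
  refine ⟨α.surjective.comp hφ.surj, ?_, hφ.perf⟩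
  intro x hx
  refine hφ.cen ?_
  have h1 : α (φ x) = 1 := hx
  exact (map_eq_one_iff α α.injective).1 h1

theorem ker_aut {L : Type} [Group L] {φ : L →* SU 6 F 2} (h2 : IsPGroup 2 φ.ker) (α : MulAut (SU 6 F 2)) :
    IsPGroup 2 (α.toMonoidHom.comp φ).ker := by
  have e : (α.toMonoidHom.comp φ).ker = φ.ker := by
    ext x
    rw [MonoidHom.mem_ker, MonoidHom.mem_ker]
    exact map_eq_one_iff α α.injective
  rw [e]; exact h2

include hω

theorem isC_of_cover (hF : Fintype.card F = 2 ^ 2) (g : SU 6 F 2)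
    (hcov : ∃ i < 40, ∃ l, (l = 1 ∨ l = 2 ∨ l = 3) ∧ ∃ c : Cfsg.GU 6 F 2,
      gm c * mat g = (H767.U6.d4 ω l • X ω i) * gm c) (hg : g ∉ center (SU 6 F 2)) {L : Type} [Group L] [Finite L]
    {φ : L →* SU 6 F 2} (hφ : PCE φ) (h2 : IsPGroup 2 φ.ker) {y : L} (hy : φ y = g) : IsC y := by
  obtain ⟨i, hi, l, hl, c, hc⟩ := hcov
  have h1 : mat (guConj c g) = H767.U6.d4 ω l • X ω i := by
    show gm c * mat g * gm c⁻¹ = _
    rw [hc, Matrix.mul_assoc, gm_mul_inv, Matrix.mul_one]
  refine isC_rep hω hF (pce_aut hφ (guConj c)) (ker_aut h2 (guConj c)) hi hl ?_ h1 (y := y) ?_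
  · rintro rfl
    apply hg
    have hX : X ω 0 = 1 := by
      ext r s
      have e : ∀ r s : Fin 6, cd (XP.getD 0 0) r s = if r = s then 1 else 0 := by decide
      show H767.U6.d4 ω (cd (XP.getD 0 0) r s) = _
      rw [e, Matrix.one_apply]
      split_ifs <;> rfl
    rw [hX] at h1
    have hcen : guConj c g ∈ center (SU 6 F 2) := by
      rw [mem_center_iff]
      intro x
      apply mat_injective
      rw [mat_mul, mat_mul, h1, Matrix.smul_mul, Matrix.mul_smul, Matrix.one_mul, Matrix.mul_one]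
    rw [mem_center_iff] at hcen ⊢
    intro x
    have := hcen (guConj c x)
    rw [← map_mul, ← map_mul] at this
    exact (guConj c).injective this
  · show guConj c (φ y) = guConj c g
    rw [hy]

end Cfsg.Agent.H486.US
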