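import Cfsg.Agent.KFacts.OddLift.USixL.Diff

/-!
# Word calculus for the transvection lifts of `PSU₆(2)` (helper486)

Codes for the vectors of `F₄⁶`, words of codes, moves (Hurwitz moves, cancellation, line relation), soundness.
-/

set_option autoImplicit false
set_option linter.unusedSectionVars false

namespace Cfsg.Agent.H486.US

open Subgroup Cfsg Cfsg.Agent.LieClassical.HermBasic Cfsg.Agent.ClassicalGeometry.UnitTransv
  Cfsg.Agent.SporadicStructure.UnitTwo Cfsg.Agent.R01.PSUSix Cfsg.Agent.KFacts.OddLift.USixL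
open Cfsg.Agent.ClassicalGeometry.UnitAutBasic (tau pr pr_surjective)

universe u v

/-- the field with four elements: `0, 1, ω, ω²` -/
inductive Q | z | o | w | u
deriving DecidableEq

namespace Q

def add : Q → Q → Q
  | z, x => x
  | x, z => x
  | o, o => z
  | o, w => u
  | o, u => w
  | w, o => u
  | w, w => z
  | w, u => o
  | u, o => w
  | u, w => o
  | u, u => z

def mul : Q → Q → Q
  | z, _ => z
  | _, z => z
  | o, x => x
  | x, o => x
  | w, w => u
  | w, u => o
  | u, w => o
  | u, u => w

/-- conjugation = squaring -/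
def cj : Q → Q
  | z => z
  | o => o
  | w => u
  | u => w

def ev {F : Type v} [Field F] (ω : F) : Q → F
  | z => 0
  | o => 1
  | w => ω
  | u => ω ^ 2

/-- decoding -/
def d : ℕ → Q
  | 0 => z
  | 1 => o
  | 2 => w
  | _ => u

end Q

/-- vectors -/
structure V6 where
  a : Q
  b : Q
  c : Q
  d : Q
  e : Q
  f : Q
deriving DecidableEq

namespace V6

def add (x y : V6) : V6 := ⟨x.a.add y.a, x.b.add y.b, x.c.add y.c, x.d.add y.d, x.e.add y.e, x.f.add y.f⟩

def smul (k : Q) (x : V6) : V6 := ⟨k.mul x.a, k.mul x.b, k.mul x.c, k.mul x.d, k.mul x.e, k.mul x.f⟩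

/-- the Hermitian form -/
def h (x y : V6) : Q := (x.a.mul y.a.cj).add ((x.b.mul y.b.cj).add ((x.c.mul y.c.cj).add ((x.d.mul y.d.cj).add
  ((x.e.mul y.e.cj).add (x.f.mul y.f.cj)))))

def zero : V6 := ⟨.z, .z, .z, .z, .z, .z⟩

/-- decoding, base four -/
def d4 (n : ℕ) : V6 := ⟨Q.d (n % 4), Q.d (n / 4 % 4), Q.d (n / 16 % 4), Q.d (n / 64 % 4), Q.d (n / 256 % 4), Q.d (n / 1024 % 4)⟩

def toF {F : Type v} [Field F] (ω : F) (x : V6) : Fin 6 → F :=
  ![x.a.ev ω, x.b.ev ω, x.c.ev ω, x.d.ev ω, x.e.ev ω, x.f.ev ω]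

/-- the transvection of `b` applied to `a` -/
def T (b a : V6) : V6 := a.add (V6.smul (a.h b) b)

/-- proportional (up to a nonzero scalar) -/
def prop (x y : V6) : Bool := decide (x = y) || decide (x = V6.smul .w y) || decide (x = V6.smul .u y)

end V6

section Sound

variable {F : Type v} [Field F] [Fintype F] (hF : Fintype.card F = 2 ^ 2) {ω : F} (hω : ω ^ 2 + ω + 1 = 0)

include hF hω

theorem ev_add (x y : Q) : (x.add y).ev ω = x.ev ω + y.ev ω := by
  have h2 := two_eq_zero hF
  cases x <;> cases y <;> simp only [Q.add, Q.ev, zero_add, add_zero] <;>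
    first
      | rfl
      | linear_combination hω - h2 * 1
      | linear_combination hω
      | linear_combination (-1 : F) * hω
      | linear_combination -h2
      | linear_combination (-ω) * h2
      | linear_combination (-ω ^ 2) * h2
      | linear_combination hω - h2 - ω * h2
      | linear_combination hω - h2 - ω ^ 2 * h2
      | linear_combination (1 : F) * hω - ω * h2
      | linear_combination (1 : F) * hω - ω ^ 2 * h2
      | linear_combination (-1 : F) * hω + h2

theorem ev_mul (x y : Q) : (x.mul y).ev ω = x.ev ω * y.ev ω := by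
  have h3 : ω ^ 3 = 1 := omega_cubed hω
  cases x <;> cases y <;> simp only [Q.mul, Q.ev, zero_mul, mul_zero, one_mul, mul_one] <;>
    first
      | rfl
      | ring1
      | linear_combination -h3
      | linear_combination (-ω) * h3

theorem ev_cj (x : Q) : (x.cj).ev ω = x.ev ω ^ 2 := by
  have h3 : ω ^ 3 = 1 := omega_cubed hω
  cases x <;> simp only [Q.cj, Q.ev] <;>
    first
      | rfl
      | ring1
      | linear_combination (-ω) * h3

theorem ev_ne {x y : Q} (h : x ≠ y) : x.ev ω ≠ y.ev ω := by
  have h2 := two_eq_zero hF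
  have h0 := omega_ne_zero hω
  have h1 := omega_ne_one hF hω
  have h3 : ω ^ 2 ≠ 0 := pow_ne_zero 2 h0
  have h4 : ω ^ 2 ≠ 1 := by
    intro e
    apply h0
    linear_combination hω - e - h2
  have h5 : ω ^ 2 ≠ ω := by
    intro e
    apply one_ne_zero (α := F)
    linear_combination hω - e - ω * h2
  cases x <;> cases y <;> simp only [Q.ev, ne_eq] <;>
    first
      | exact absurd rfl h
      | exact h0
      | exact Ne.symm h0
      | exact h1
      | exact Ne.symm h1
      | exact h3
      | exact Ne.symm h3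
      | exact h4
      | exact Ne.symm h4
      | exact h5
      | exact Ne.symm h5
      | exact one_ne_zero
      | exact zero_ne_one

theorem ev_inj {x y : Q} (h : x.ev ω = y.ev ω) : x = y := by
  by_contra h1
  exact ev_ne hF hω h1 h

theorem toF_add (x y : V6) : (x.add y).toF ω = x.toF ω + y.toF ω := by
  funext i
  fin_cases i <;> simp [V6.toF, V6.add, ev_add hF hω]

theorem toF_smul (k : Q) (x : V6) : (x.smul k).toF ω = k.ev ω • x.toF ω := by
  funext i
  fin_cases i <;> simp [V6.toF, V6.smul, ev_mul hF hω]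

omit hF hω [Fintype F] in
theorem toF_zero : V6.zero.toF ω = 0 := by
  funext i
  fin_cases i <;> simp [V6.toF, V6.zero, Q.ev]

theorem toF_inj {x y : V6} (h : x.toF ω = y.toF ω) : x = y := by
  have h0 := congrFun h 0
  have h1 := congrFun h 1
  have h2 := congrFun h 2
  have h3 := congrFun h 3
  have h4 := congrFun h 4
  have h5 := congrFun h 5
  obtain ⟨a, b, c, d, e, f⟩ := x
  obtain ⟨a', b', c', d', e', f'⟩ := y
  simp only [V6.toF, Matrix.cons_val] at h0 h1 h2 h3 h4 h5
  rw [V6.mk.injEq]
  exact ⟨ev_inj hF hω h0, ev_inj hF hω h1, ev_inj hF hω h2, ev_inj hF hω h3, ev_inj hF hω h4, ev_inj hF hω h5⟩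

theorem herm_toF (x y : V6) : hermForm 6 F 2 (x.toF ω) (y.toF ω) = (x.h y).ev ω := by
  rw [herm_def]
  simp only [V6.h, ev_add hF hω, ev_mul hF hω, ev_cj hF hω, Fin.sum_univ_succ, V6.toF]
  simp

end Sound

end Cfsg.Agent.H486.US
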