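import Cfsg.Agent.H486.US.Fus
import Cfsg.Agent.H486.US.Pairs
import Cfsg.Agent.H109.US.Wom
import Cfsg.Agent.H109.US.Two

/-!
# The 2-covers of `SU₆(2)`: every element over a class representative is a commutator (helper486)
-/

set_option autoImplicit false
set_option linter.unusedSectionVars false

namespace Cfsg.Agent.H486.US

open Subgroup Cfsg Cfsg.Agent.LieClassical.HermBasic Cfsg.Agent.ClassicalGeometry.UnitTransv
  Cfsg.Agent.SporadicStructure.UnitTwo Cfsg.Agent.R01.PSUSix Cfsg.Agent.KFacts.OddLift.USixL Cfsg.Agent.H777.Ore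
  Cfsg.Agent.H51.Mult
open Cfsg.Agent.LieClassical.HermSiegel (mat mat_def)
open Cfsg.Agent.ClassicalGeometry.UnitAutBasic (tau pr pr_surjective)
open Cfsg.Agent.H767.U6 (XP cd X mt)
open scoped Matrix

universe u v w

variable {F : Type} [Field F] [Fintype F] {hF : Fintype.card F = 2 ^ 2} {ω : F} (hω : ω ^ 2 + ω + 1 = 0)

include hω

/-- the word `ω` has value `1` -/
theorem val_wom {K : Type u} [Group K] {f : K →* PSU 6 F 2} {t : (Fin 6 → F) → K} (h : TL hF f t)
    (hZ : f.ker ≤ center K) (h2 : IsPGroup 2 f.ker) : val t ω wom = 1 := by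
  have e := H109.US.wom h hZ h2 hω
  rw [← e]
  simp only [val, wom, List.map_cons, List.map_nil, List.prod_cons, List.prod_nil, V6.toF, Q.ev, mul_one, mul_assoc]

theorem exists_Two {L : Type} [Group L] [Finite L] {φ : L →* SU 6 F 2} (hφ : PCE φ) (h2 : IsPGroup 2 φ.ker) :
    ∃ (K : Type) (_ : Group K) (q : L →* K) (f : K →* PSU 6 F 2) (t : (Fin 6 → F) → K), Two hF ω φ q f t := by
  obtain ⟨K, _, _, q, f, hq, hcomp, hf, hZ, h2', hK, hinj, -⟩ := H109.US.exists_two hF hφ h2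
  obtain ⟨t, ht⟩ := exists_TL (hF := hF) hf hZ h2'
  exact ⟨K, _, q, f, t, ht, hφ.surj, hq, fun x => DFunLike.congr_fun hcomp x, hf, hZ, hinj,
    fun z hz => ker_cases hω ht hK hf hZ h2' hz, val_wom hω ht hZ h2'⟩

theorem gW_reverse (hF : Fintype.card F = 2 ^ 2) : ∀ {w : List V6}, iso w = true → gW hF ω w.reverse = (gW hF ω w)⁻¹
  | [], _ => by simp [gW]
  | a :: w, hw => by
    rw [iso_cons] at hw
    rw [List.reverse_cons, gW_append, gW_reverse hF hw.2, gW_cons, gW_cons, gW_nil, mul_one, mul_inv_rev,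
      T_eq hF (herm_iso hω hF hw.1)]
    congr 1
    exact (inv_eq_of_mul_eq_one_left (T_mul_self hF _ _)).symm

/-- every element over `a [x₀, u] a⁻¹` is a commutator -/
theorem isC_pair (hF : Fintype.card F = 2 ^ 2) {L : Type} [Group L] [Finite L] {φ : L →* SU 6 F 2} (hφ : PCE φ)
    (h2 : IsPGroup 2 φ.ker) {A U : List V6} (hA : iso A = true) (hU : iso U = true) {y : L}
    (hy : φ y = gW hF ω (pairW A U)) : IsC y := by
  obtain ⟨K, _, q, f, t, H⟩ := exists_Two (hF := hF) hω hφ h2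
  obtain ⟨a, ha⟩ := H.hφ (gW hF ω A)
  obtain ⟨x, hx⟩ := H.hφ (gW hF ω v_ns1)
  have e : φ y = φ (a * x * a⁻¹) * (gW hF ω A * gW hF ω U * (gW hF ω A)⁻¹) * (φ (a * x * a⁻¹))⁻¹ *
      (gW hF ω A * gW hF ω U * (gW hF ω A)⁻¹)⁻¹ := by
    rw [hy, pairW, gW_append, gW_append, gW_append, gW_append, gW_append, gW_reverse hω hF hA,
      gW_reverse hω hF hU, gW_reverse hω hF iv_ns1,
      map_mul, map_mul, map_inv, ha, hx]
    group
  refine Cfsg.Agent.H6.QO.isC_of_pair H.hφ hφ.cen e fun ζ hζ => ?_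
  obtain ⟨k, hk⟩ := isConj_iff.1 (H.fus hω hx hζ)
  refine isConj_iff.2 ⟨a * k * a⁻¹, ?_⟩
  have hc := H.central hω hζ
  calc a * k * a⁻¹ * (a * x * a⁻¹) * (a * k * a⁻¹)⁻¹ = a * (k * x * k⁻¹) * a⁻¹ := by group
    _ = a * x * (ζ * a⁻¹) := by rw [hk]; group
    _ = a * x * a⁻¹ * ζ := by rw [← hc]; group

/-- every element over a conjugate of `ω T` is a commutator -/
theorem isC_wt (hF : Fintype.card F = 2 ^ 2) {L : Type} [Group L] [Finite L] {φ : L →* SU 6 F 2} (hφ : PCE φ)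
    (h2 : IsPGroup 2 φ.ker) {s : SU 6 F 2} {y : L}
    (hy : φ y = s * (gW hF ω wom * gW hF ω [E0]) * s⁻¹) : IsC y := by
  obtain ⟨K, _, q, f, t, H⟩ := exists_Two (hF := hF) hω hφ h2
  obtain ⟨a, ha⟩ := H.hφ s
  have h1 : IsC (a⁻¹ * y * a) := H.wt hω (by rw [map_mul, map_mul, map_inv, hy, ha]; group)
  have h2 := IsC.conj h1 a
  have e : a * (a⁻¹ * y * a) * a⁻¹ = y := by group
  rwa [e] at h2

/-! ### The columns -/

theorem d4_eq (hF : Fintype.card F = 2 ^ 2) (n : ℕ) : H767.U6.d4 ω n = (Q.d n).ev ω := by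
  match n with
  | 0 => rfl
  | 1 => rfl
  | 2 => rfl
  | n + 3 =>
    show ω + 1 = ω ^ 2
    have := two_eq_zero hF
    linear_combination hω - ω ^ 2 * this

theorem toF_colV (hF : Fintype.card F = 2 ^ 2) (P l : ℕ) (j : Fin 6) : (colV P l j).toF ω =
    (H767.U6.d4 ω l • mt ω P) *ᵥ Pi.single j 1 := by
  rw [colV, toF_smul hF hω, d4_eq hω hF, Matrix.smul_mulVec, Matrix.mulVec_single_one]
  congr 1
  funext i
  rw [Matrix.col_apply]
  fin_cases i <;> exact (d4_eq hω hF _).symm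

/-- the matrix of a word from its columns -/
theorem mat_gW (hF : Fintype.card F = 2 ^ 2) {i l : ℕ} {W : List V6} (hW : iso W = true)
    (hc : bas.map (actW W) = colsV i l) : mat (gW hF ω W) = H767.U6.d4 ω l • X ω i := by
  obtain ⟨b0, b1, b2, b3, b4, b5⟩ := toF_basis (ω := ω)
  have hc' : [actW W (V6.d4 1), actW W (V6.d4 4), actW W (V6.d4 16), actW W (V6.d4 64), actW W (V6.d4 256),
      actW W (V6.d4 1024)] = [colV (XP.getD i 0) l 0, colV (XP.getD i 0) l 1, colV (XP.getD i 0) l 2,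
      colV (XP.getD i 0) l 3, colV (XP.getD i 0) l 4, colV (XP.getD i 0) l 5] := hc
  simp only [List.cons.injEq, and_true] at hc'
  obtain ⟨c0, c1, c2, c3, c4, c5⟩ := hc'
  have key : ∀ (j : Fin 6) (x : V6), x.toF ω = Pi.single j 1 → actW W x = colV (XP.getD i 0) l j →
      mat (gW hF ω W) *ᵥ Pi.single j 1 = (H767.U6.d4 ω l • X ω i) *ᵥ Pi.single j 1 := by
    intro j x hx hcx
    have e : act (gW hF ω W) (Pi.single j 1) = (H767.U6.d4 ω l • X ω i) *ᵥ Pi.single j 1 := by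
      rw [← hx, act_gW hω W hW, hcx, toF_colV hω hF, hx]
      rfl
    exact e
  refine Matrix.ext_of_mulVec_single fun j => ?_
  fin_cases j
  · exact key 0 _ b0 c0
  · exact key 1 _ b1 c1
  · exact key 2 _ b2 c2
  · exact key 3 _ b3 c3
  · exact key 4 _ b4 c4
  · exact key 5 _ b5 c5

theorem iso_pairW {A U : List V6} (hA : iso A = true) (hU : iso U = true) : iso (pairW A U) = true := by
  rw [pairW, iso_append, iso_append, iso_append, iso_append, iso_append]
  exact ⟨⟨⟨⟨⟨hA, iv_ns1⟩, hU⟩, iso_reverse iv_ns1⟩, iso_reverse hU⟩, iso_reverse hA⟩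

/-- **Every element over a class representative (`i ≠ 0`) is a commutator.** -/
theorem isC_rep (hF : Fintype.card F = 2 ^ 2) {L : Type} [Group L] [Finite L] {φ : L →* SU 6 F 2} (hφ : PCE φ)
    (h2 : IsPGroup 2 φ.ker) {g : SU 6 F 2} {i l : ℕ} (hi : i < 40) (hl : l = 1 ∨ l = 2 ∨ l = 3) (hi0 : i ≠ 0)
    (hg : mat g = H767.U6.d4 ω l • X ω i) {y : L} (hy : φ y = g) : IsC y := by
  by_cases h1 : i = 1 → l = 1
  · obtain ⟨r, hr, rfl, rfl⟩ := pdAll_cover i l hi (by omega) (by omega) hi0 h1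
    have hc := pdAll_ok r hr
    simp only [chkP, Bool.and_eq_true, decide_eq_true_eq] at hc
    obtain ⟨hA, hU, hc⟩ := hc
    exact isC_pair hω hF hφ h2 hA hU (hy.trans (LieClassical.HermSiegel.mat_injective
      (hg.trans (mat_gW hω hF (iso_pairW hω hA hU) hc).symm)))
  · push Not at h1
    obtain ⟨rfl, hl1⟩ := h1
    -- `X_1 = a T a⁻¹`
    have hE : iso [E0] = true := by decide
    have hW : iso (a1 ++ [E0] ++ a1.reverse) = true :=
      iso_append.2 ⟨iso_append.2 ⟨a1_iso, hE⟩, iso_reverse a1_iso⟩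
    have hm := mat_gW hω hF hW a1_ok
    set g₀ := gW hF ω (a1 ++ [E0] ++ a1.reverse) with hg₀
    have e₀ : g₀ = gW hF ω a1 * gW hF ω [E0] * (gW hF ω a1)⁻¹ := by
      rw [hg₀, gW_append, gW_append, gW_reverse hω hF a1_iso]
    have hEE : gW hF ω [E0] * gW hF ω [E0] = 1 := by
      rw [gW_cons, gW_nil, mul_one, T_eq hF (herm_iso hω hF (a := E0) (by decide)), T_mul_self]
    have hinv : g₀ * g₀ = 1 := by
      rw [e₀]
      calc gW hF ω a1 * gW hF ω [E0] * (gW hF ω a1)⁻¹ * (gW hF ω a1 * gW hF ω [E0] * (gW hF ω a1)⁻¹)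
          = gW hF ω a1 * (gW hF ω [E0] * gW hF ω [E0]) * (gW hF ω a1)⁻¹ := by group
        _ = 1 := by rw [hEE]; group
    have hc : ∀ x : SU 6 F 2, x * gW hF ω wom = gW hF ω wom * x := fun x => by
      apply ext_act
      intro v
      rw [act_mul, act_mul, act_wom hω, act_wom hω, act_smul]
    have ha : ∀ v, act g v = H767.U6.d4 ω l • act g₀ v := by
      intro v
      have h3 : act g₀ v = (H767.U6.d4 ω 1 • X ω 1) *ᵥ v := by rw [← hm]; rfl
      have h4 : act g v = (H767.U6.d4 ω l • X ω 1) *ᵥ v := by rw [← hg]; rfl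
      rw [h3, h4, Matrix.smul_mulVec, Matrix.smul_mulVec]
      show _ = H767.U6.d4 ω l • ((1 : F) • _)
      rw [one_smul]
    have e1 : gW hF ω wom * g₀ = gW hF ω a1 * (gW hF ω wom * gW hF ω [E0]) * (gW hF ω a1)⁻¹ := by
      rw [e₀, ← mul_assoc, ← mul_assoc, ← hc (gW hF ω a1), mul_assoc (gW hF ω a1) (gW hF ω wom)]
    rcases hl with rfl | rfl | rfl
    · exact absurd rfl hl1
    · refine isC_wt hω hF hφ h2 (s := gW hF ω a1) (y := y) ?_
      rw [hy, ← e1]
      apply ext_act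
      intro v
      rw [ha, act_mul, act_wom hω]
      rfl
    · have h5 : IsC y⁻¹ := by
        refine isC_wt hω hF hφ h2 (s := gW hF ω a1) (y := y⁻¹) ?_
        rw [map_inv, hy, ← e1]
        refine inv_eq_of_mul_eq_one_right ?_
        apply ext_act
        intro v
        have h6 : (ω + 1) * ω = 1 := by
          have := two_eq_zero hF
          linear_combination hω - this
        rw [act_mul, ha, act_mul, act_wom hω, act_smul, smul_smul, ← act_mul, hinv, act_one]
        show ((ω + 1) * ω) • v = v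
        rw [h6, one_smul]
      have h7 := IsC.inv h5
      rwa [inv_inv] at h7

end Cfsg.Agent.H486.US
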