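import Cfsg.Agent.H486.US.Code

/-!
# Word calculus for the transvection lifts of `PSU₆(2)`: moves and soundness (helper486)
-/

set_option autoImplicit false
set_option linter.unusedSectionVars false

namespace Cfsg.Agent.H486.US

open Subgroup Cfsg Cfsg.Agent.LieClassical.HermBasic Cfsg.Agent.ClassicalGeometry.UnitTransv
  Cfsg.Agent.SporadicStructure.UnitTwo Cfsg.Agent.R01.PSUSix Cfsg.Agent.KFacts.OddLift.USixL
open Cfsg.Agent.ClassicalGeometry.UnitAutBasic (tau pr pr_surjective)

universe u v

/-- isotropic words -/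
def iso (w : List V6) : Bool := w.all fun x => decide (x.h x = .z)

/-- a list function at the position `n` -/
def atI (g : List V6 → Option (List V6)) : ℕ → List V6 → Option (List V6)
  | 0, w => g w
  | n + 1, a :: w => (atI g n w).map (a :: ·)
  | _ + 1, [] => none

def fH : List V6 → Option (List V6)
  | a :: b :: r => some (b :: V6.T b a :: r)
  | _ => none

def fG : List V6 → Option (List V6)
  | a :: b :: r => some (V6.T a b :: a :: r)
  | _ => none

def fC : List V6 → Option (List V6)
  | a :: b :: r => if V6.prop a b then some r else none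
  | _ => none

/-- `x`, `y` span an isotropic line -/
def lineOK (x y : V6) : Bool := decide (x ≠ .zero) && decide (x.h y = .z) && decide (y ≠ .zero) && decide (y ≠ x) &&
  decide (y ≠ V6.smul .w x) && decide (y ≠ V6.smul .u x)

/-- three collinear letters `a, k b, a + k b` are replaced by the two others -/
def fL (k : Q) : List V6 → Option (List V6)
  | a :: b :: c :: r => if lineOK a (V6.smul k b) && V6.prop c (a.add (V6.smul k b)) && decide (k ≠ .z) then
      some ((V6.smul .u a).add (V6.smul k b) :: (V6.smul .w a).add (V6.smul k b) :: r) else none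
  | _ => none

/-- operations: Hurwitz moves `h`, `g`, cancellation `c`, line relation `l` -/
inductive Op
  | h (i : ℕ)
  | g (i : ℕ)
  | c (i : ℕ)
  | l (i : ℕ) (k : Q)

def step : Op → List V6 → Option (List V6)
  | .h i => atI fH i
  | .g i => atI fG i
  | .c i => atI fC i
  | .l i k => atI (fL k) i

def run : List Op → List V6 → Option (List V6)
  | [], w => some w
  | x :: l, w => (step x w).bind (run l)

section Sound

variable {F : Type v} [Field F] [Fintype F] {hF : Fintype.card F = 2 ^ 2} {ω : F} (hω : ω ^ 2 + ω + 1 = 0)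
  {K : Type u} [Group K] {f : K →* PSU 6 F 2} {t : (Fin 6 → F) → K} (h : TL hF f t)

/-- the value of a word -/
def val (t : (Fin 6 → F) → K) (ω : F) (w : List V6) : K := (w.map fun x => t (x.toF ω)).prod

theorem val_nil : val t ω [] = 1 := rfl
theorem val_cons (a : V6) (w : List V6) : val t ω (a :: w) = t (a.toF ω) * val t ω w := by simp [val]
theorem val_append (w w' : List V6) : val t ω (w ++ w') = val t ω w * val t ω w' := by simp [val]

theorem iso_cons {a : V6} {w : List V6} : iso (a :: w) = true ↔ a.h a = .z ∧ iso w = true := by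
  simp [iso]

theorem iso_append {w w' : List V6} : iso (w ++ w') = true ↔ iso w = true ∧ iso w' = true := by
  simp [iso]

include hω

theorem herm_iso (hF : Fintype.card F = 2 ^ 2) {a : V6} (ha : a.h a = .z) :
    hermForm 6 F 2 (a.toF ω) (a.toF ω) = 0 := by
  rw [herm_toF hF hω, ha]; rfl

theorem toF_T (hF : Fintype.card F = 2 ^ 2) {a b : V6} (hb : b.h b = .z) : (V6.T b a).toF ω =
    act (T hF (b.toF ω) (herm_iso hω hF hb)) (a.toF ω) := by
  rw [act_T, V6.T, toF_add hF hω, toF_smul hF hω, herm_toF hF hω]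

theorem h_T (hF : Fintype.card F = 2 ^ 2) {a b : V6} (ha : a.h a = .z) (hb : b.h b = .z) :
    (V6.T b a).h (V6.T b a) = .z := by
  apply ev_inj hF hω
  rw [← herm_toF hF hω, toF_T hω hF hb, herm_act, herm_toF hF hω, ha]

theorem ev_ne_zero (hF : Fintype.card F = 2 ^ 2) {k : Q} (hk : k ≠ .z) : k.ev ω ≠ 0 := by
  have := ev_ne hF hω hk
  exact this

theorem h_smul (hF : Fintype.card F = 2 ^ 2) (k : Q) {a : V6} (ha : a.h a = .z) :
    (V6.smul k a).h (V6.smul k a) = .z := by
  apply ev_inj hF hω
  rw [← herm_toF hF hω, toF_smul hF hω, herm_smul_left, herm_smul_right, herm_toF hF hω, ha]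
  simp [Q.ev]

theorem h_add (hF : Fintype.card F = 2 ^ 2) {a b : V6} (ha : a.h a = .z) (hb : b.h b = .z) (hab : a.h b = .z) :
    (a.add b).h (a.add b) = .z := by
  apply ev_inj hF hω
  have h1 : hermForm 6 F 2 (a.toF ω) (b.toF ω) = 0 := by rw [herm_toF hF hω, hab]; rfl
  rw [← herm_toF hF hω, toF_add hF hω, herm_add_left, herm_add_right hF, herm_add_right hF, h1,
    herm_eq_zero_swap hF h1, herm_toF hF hω, herm_toF hF hω, ha, hb]
  simp [Q.ev]

theorem h_smul_right (hF : Fintype.card F = 2 ^ 2) (k : Q) {a b : V6} (hab : a.h b = .z) : a.h (V6.smul k b) = .z := by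
  apply ev_inj hF hω
  rw [← herm_toF hF hω, toF_smul hF hω, herm_smul_right, herm_toF hF hω, hab]
  simp [Q.ev]

/-! ### The moves -/

include h

theorem t_prop {a b : V6} (hb : b.h b = .z) (hp : V6.prop a b = true) : t (a.toF ω) = t (b.toF ω) := by
  have h0 := omega_ne_zero hω
  rw [V6.prop, Bool.or_eq_true, Bool.or_eq_true] at hp
  rcases hp with (h1 | h1) | h1
  · rw [of_decide_eq_true h1]
  · rw [of_decide_eq_true h1, toF_smul hF hω]
    exact h.smul _ _ h0 (herm_iso hω hF hb)
  · rw [of_decide_eq_true h1, toF_smul hF hω]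
    exact h.smul _ _ (pow_ne_zero 2 h0) (herm_iso hω hF hb)

theorem t_sq {a : V6} (ha : a.h a = .z) : t (a.toF ω) * t (a.toF ω) = 1 := h.sq _ (herm_iso hω hF ha)

theorem t_T {a b : V6} (ha : a.h a = .z) (hb : b.h b = .z) :
    t (b.toF ω) * t (a.toF ω) = t ((V6.T b a).toF ω) * t (b.toF ω) := by
  have h1 := h.conj (t (b.toF ω)) (T hF (b.toF ω) (herm_iso hω hF hb)) (a.toF ω) (herm_iso hω hF ha)
    (by rw [h.map _ (herm_iso hω hF hb), tau_eq_pr hF (herm_iso hω hF hb)])
  rw [← toF_T hω hF hb] at h1
  rw [← h1, inv_mul_cancel_right]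

theorem fG_sound {w w' : List V6} (hw : iso w = true) (hs : fG w = some w') :
    val t ω w = val t ω w' ∧ iso w' = true := by
  match w, hw, hs with
  | a :: b :: r, hw, hs =>
    rw [iso_cons, iso_cons] at hw
    simp only [fG, Option.some.injEq] at hs
    rw [← hs]
    refine ⟨?_, ?_⟩
    · rw [val_cons, val_cons, val_cons, val_cons, ← mul_assoc, ← mul_assoc, t_T hω h hw.2.1 hw.1]
    · rw [iso_cons, iso_cons]
      exact ⟨h_T hω hF hw.2.1 hw.1, hw.1, hw.2.2⟩

theorem fH_sound {w w' : List V6} (hw : iso w = true) (hs : fH w = some w') :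
    val t ω w = val t ω w' ∧ iso w' = true := by
  match w, hw, hs with
  | a :: b :: r, hw, hs =>
    rw [iso_cons, iso_cons] at hw
    simp only [fH, Option.some.injEq] at hs
    rw [← hs]
    refine ⟨?_, ?_⟩
    · have h1 := t_T hω h hw.1 hw.2.1
      have h2 := t_sq hω h hw.2.1
      have h3 : t (a.toF ω) * t (b.toF ω) = t (b.toF ω) * t ((V6.T b a).toF ω) := by
        calc t (a.toF ω) * t (b.toF ω) = (t (b.toF ω) * t (b.toF ω)) * t (a.toF ω) * t (b.toF ω) := by
              rw [h2, one_mul]
          _ = t (b.toF ω) * (t (b.toF ω) * t (a.toF ω)) * t (b.toF ω) := by group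
          _ = t (b.toF ω) * (t ((V6.T b a).toF ω) * t (b.toF ω)) * t (b.toF ω) := by rw [h1]
          _ = t (b.toF ω) * t ((V6.T b a).toF ω) * (t (b.toF ω) * t (b.toF ω)) := by group
          _ = _ := by rw [h2, mul_one]
      rw [val_cons, val_cons, val_cons, val_cons, ← mul_assoc, ← mul_assoc, h3]
    · rw [iso_cons, iso_cons]
      exact ⟨hw.2.1, h_T hω hF hw.1 hw.2.1, hw.2.2⟩

theorem fC_sound {w w' : List V6} (hw : iso w = true) (hs : fC w = some w') :
    val t ω w = val t ω w' ∧ iso w' = true := by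
  match w, hw, hs with
  | a :: b :: r, hw, hs =>
    rw [iso_cons, iso_cons] at hw
    simp only [fC] at hs
    split_ifs at hs with hp
    rw [Option.some.injEq] at hs
    rw [← hs]
    refine ⟨?_, hw.2.2⟩
    rw [val_cons, val_cons, ← mul_assoc, t_prop hω h hw.2.1 hp, t_sq hω h hw.2.1, one_mul]

theorem line_of {x y : V6} (hx : x.h x = .z) (hy : y.h y = .z) (hl : lineOK x y = true) :
    Line (x.toF ω) (y.toF ω) := by
  simp only [lineOK, Bool.and_eq_true, decide_eq_true_eq] at hl
  obtain ⟨⟨⟨⟨⟨h1, h2⟩, h3⟩, h4⟩, h5⟩, h6⟩ := hl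
  refine ⟨herm_iso hω hF hx, herm_iso hω hF hy, by rw [herm_toF hF hω, h2]; rfl, ?_, ?_⟩
  · intro e
    exact h1 (toF_inj hF hω (by rw [e, toF_zero]))
  · intro c e
    rcases cases4 hF hω c with h7 | h7 | h7 | h7
    · exact h3 (toF_inj hF hω (by rw [e, h7, zero_smul, toF_zero]))
    · exact h4 (toF_inj hF hω (by rw [e, h7, one_smul]))
    · exact h5 (toF_inj hF hω (by rw [e, h7, toF_smul hF hω]; rfl))
    · exact h6 (toF_inj hF hω (by rw [e, h7, toF_smul hF hω]; rfl))

theorem fL_sound {k : Q} {w w' : List V6} (hw : iso w = true) (hs : fL k w = some w') :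
    val t ω w = val t ω w' ∧ iso w' = true := by
  match w, hw, hs with
  | a :: b :: c :: r, hw, hs =>
    rw [iso_cons, iso_cons, iso_cons] at hw
    simp only [fL] at hs
    split_ifs at hs with hp
    rw [Option.some.injEq] at hs
    rw [← hs]
    rw [Bool.and_eq_true, Bool.and_eq_true, decide_eq_true_eq] at hp
    obtain ⟨⟨h1, h2⟩, h3⟩ := hp
    obtain ⟨ha, hb, hc, hr⟩ := hw
    have hy := h_smul hω hF k hb
    have hL := line_of hω h ha hy h1
    have hab : a.h (V6.smul k b) = .z := by
      simp only [lineOK, Bool.and_eq_true, decide_eq_true_eq] at h1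
      exact h1.1.1.1.1.2
    have e1 : t ((V6.smul k b).toF ω) = t (b.toF ω) := by
      rw [toF_smul hF hω]
      exact h.smul _ _ (ev_ne_zero hω hF h3) (herm_iso hω hF hb)
    have e2 := t_prop hω h (h_add hω hF ha hy hab) h2
    have e3 := h.line _ _ hL ω hω
    have e4 : t (ω • a.toF ω + (V6.smul k b).toF ω) = t (((V6.smul .w a).add (V6.smul k b)).toF ω) := by
      rw [toF_add hF hω, toF_smul hF hω .w]; rfl
    have e5 : t (ω ^ 2 • a.toF ω + (V6.smul k b).toF ω) = t (((V6.smul .u a).add (V6.smul k b)).toF ω) := by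
      rw [toF_add hF hω, toF_smul hF hω .u]; rfl
    have e6 : t (a.toF ω + (V6.smul k b).toF ω) = t (c.toF ω) := by
      rw [e2, toF_add hF hω]
    have i1 : ((V6.smul .w a).add (V6.smul k b)).h ((V6.smul .w a).add (V6.smul k b)) = .z := by
      refine h_add hω hF (h_smul hω hF _ ha) hy ?_
      apply ev_inj hF hω
      rw [← herm_toF hF hω, toF_smul hF hω .w, herm_smul_left, herm_toF hF hω, hab]
      simp [Q.ev]
    have i2 : ((V6.smul .u a).add (V6.smul k b)).h ((V6.smul .u a).add (V6.smul k b)) = .z := by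
      refine h_add hω hF (h_smul hω hF _ ha) hy ?_
      apply ev_inj hF hω
      rw [← herm_toF hF hω, toF_smul hF hω .u, herm_smul_left, herm_toF hF hω, hab]
      simp [Q.ev]
    rw [e1, e4, e5, e6] at e3
    refine ⟨?_, ?_⟩
    · have s1 := t_sq hω h i1
      have s2 := t_sq hω h i2
      rw [val_cons, val_cons, val_cons, val_cons, val_cons, ← mul_assoc, ← mul_assoc, ← mul_assoc]
      congr 1
      generalize t (((V6.smul .w a).add (V6.smul k b)).toF ω) = P at *
      generalize t (((V6.smul .u a).add (V6.smul k b)).toF ω) = R at *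
      generalize t (a.toF ω) = A at *
      generalize t (b.toF ω) = B at *
      generalize t (c.toF ω) = C at *
      calc A * B * C = A * B * C * P * (R * R) * P := by rw [s2, mul_one, mul_assoc (A * B * C), s1, mul_one]
        _ = (A * B * C * P * R) * R * P := by group
        _ = R * P := by rw [e3, one_mul]
    · rw [iso_cons, iso_cons]
      exact ⟨i2, i1, hr⟩

theorem atI_sound {g : List V6 → Option (List V6)}
    (hg : ∀ w w', iso w = true → g w = some w' → val t ω w = val t ω w' ∧ iso w' = true) :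
    ∀ (n : ℕ) (w w' : List V6), iso w = true → atI g n w = some w' → val t ω w = val t ω w' ∧ iso w' = true
  | 0, w, w', hw, hs => hg w w' hw hs
  | n + 1, a :: w, w', hw, hs => by
    rw [iso_cons] at hw
    simp only [atI, Option.map_eq_some_iff] at hs
    obtain ⟨w₁, h1, h2⟩ := hs
    obtain ⟨h3, h4⟩ := atI_sound hg n w w₁ hw.2 h1
    rw [← h2]
    exact ⟨by rw [val_cons, val_cons, h3], iso_cons.2 ⟨hw.1, h4⟩⟩
  | n + 1, [], w', hw, hs => by simp [atI] at hs

theorem step_sound (x : Op) (w w' : List V6) (hw : iso w = true) (hs : step x w = some w') :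
    val t ω w = val t ω w' ∧ iso w' = true := by
  cases x with
  | h i => exact atI_sound hω h (fun w w' => fH_sound hω h) i w w' hw hs
  | g i => exact atI_sound hω h (fun w w' => fG_sound hω h) i w w' hw hs
  | c i => exact atI_sound hω h (fun w w' => fC_sound hω h) i w w' hw hs
  | l i k => exact atI_sound hω h (fun w w' => fL_sound hω h) i w w' hw hs

theorem run_sound : ∀ (l : List Op) (w w' : List V6), iso w = true → run l w = some w' →
    val t ω w = val t ω w' ∧ iso w' = true
  | [], w, w', hw, hs => by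
    simp only [run, Option.some.injEq] at hs
    exact ⟨by rw [hs], by rw [← hs]; exact hw⟩
  | x :: l, w, w', hw, hs => by
    simp only [run, Option.bind_eq_some_iff] at hs
    obtain ⟨w₁, h1, h2⟩ := hs
    obtain ⟨h3, h4⟩ := step_sound hω h x w w₁ hw h1
    obtain ⟨h5, h6⟩ := run_sound l w₁ w' h4 h2
    exact ⟨h3.trans h5, h6⟩

end Sound

end Cfsg.Agent.H486.US
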